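import Cfsg.Prelude.Def_Transfer
import Cfsg.Agent.Chars.Induced.Clifford
import Cfsg.Agent.Chars.Basic.Linear

/-!
# Strongly real characters of an odd group extended by a 2-group

Characters induced from the stabiliser of a non-trivial linear character of `N`, twisted by the
linear characters of square one, have indicator one and outweigh the real linear characters.
-/

set_option autoImplicit false
open Cfsg CfsgLib CfsgLib.Chars.Induced

noncomputable section

namespace CfsgLib.StronglyRealAverage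

universe u

/-- Linear characters of square one. -/
abbrev RealLin (K : Type*) [Group K] : Type _ := {f : K →* ℂˣ // ∀ x, f x * f x = 1}

theorem finite_hom (K : Type*) [Group K] [Finite K] : Finite (K →* ℂˣ) := by
  have := linearIndependent_monoidHom K ℂ
  have h : LinearIndependent ℂ (fun f : K →* ℂˣ => fun x => (f x : ℂ)) :=
    this.comp (fun f => (Units.coeHom ℂ).comp f) fun f g h =>
      MonoidHom.ext fun x => Units.ext (DFunLike.congr_fun h x)
  exact h.finite

theorem card_trivialOn_le {K : Type*} [Group K] [Finite K] (H : Subgroup K) :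
    Nat.card {f : K →* ℂˣ // ∀ h ∈ H, f h = 1} ≤ H.index := by
  classical
  let F : {f : K →* ℂˣ // ∀ h ∈ H, f h = 1} → (K ⧸ H → ℂ) := fun f =>
    Quotient.lift (fun x => (f.1 x : ℂ)) fun a b hab => by
      have h1 : f.1 (a⁻¹ * b) = 1 := f.2 _ (QuotientGroup.leftRel_apply.1 hab)
      rw [map_mul, map_inv, inv_mul_eq_one] at h1
      exact congrArg Units.val h1
  let L : (K ⧸ H → ℂ) →ₗ[ℂ] (K → ℂ) := LinearMap.funLeft ℂ ℂ (QuotientGroup.mk : K → K ⧸ H)
  have hli : LinearIndependent ℂ (L ∘ F) :=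
    (linearIndependent_monoidHom K ℂ).comp
      (fun f : {f : K →* ℂˣ // ∀ h ∈ H, f h = 1} => (Units.coeHom ℂ).comp f.1) fun f g h =>
      Subtype.ext (MonoidHom.ext fun x => Units.ext (DFunLike.congr_fun h x))
  have hF : LinearIndependent ℂ F := LinearIndependent.of_comp L hli
  haveI := finite_hom K
  letI := Fintype.ofFinite {f : K →* ℂˣ // ∀ h ∈ H, f h = 1}
  letI := Fintype.ofFinite (K ⧸ H)
  have := hF.fintype_card_le_finrank
  rwa [Module.finrank_pi, ← Nat.card_eq_fintype_card, ← Nat.card_eq_fintype_card] at this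

theorem card_realLin_le {K : Type*} [Group K] [Finite K] (H : Subgroup K) :
    Nat.card (RealLin K) ≤ H.index * Nat.card (RealLin H) := by
  classical
  haveI := finite_hom K
  haveI := finite_hom H
  let r : RealLin K → RealLin H := fun f => ⟨f.1.comp H.subtype, fun x => f.2 x⟩
  let s : RealLin H → (K →* ℂˣ) := fun g =>
    if h : ∃ f : RealLin K, r f = g then h.choose.1 else 1
  have hs : ∀ f : RealLin K, ∀ h ∈ H, (s (r f)) h = f.1 h := by
    intro f h hh
    have he : ∃ f' : RealLin K, r f' = r f := ⟨f, rfl⟩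
    simp only [s, dif_pos he]
    exact DFunLike.congr_fun (congrArg Subtype.val he.choose_spec) ⟨h, hh⟩
  let E : RealLin K → RealLin H × {f : K →* ℂˣ // ∀ h ∈ H, f h = 1} := fun f =>
    (r f, ⟨f.1 / s (r f), fun h hh => by rw [MonoidHom.div_apply, hs f h hh, div_self']⟩)
  have hE : Function.Injective E := fun f g h => by
    have h1 := congrArg Prod.fst h
    have h2 := congrArg (fun x => x.2.1) h
    simp only [E] at h1 h2
    rw [h1] at h2
    exact Subtype.ext (div_left_injective h2)
  refine le_trans (Nat.card_le_card_of_injective E hE) ?_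
  rw [Nat.card_prod, mul_comm]
  exact Nat.mul_le_mul_right _ (card_trivialOn_le H)

variable {G : Type u} [Group G] [Fintype G] {N P : Subgroup G} [N.Normal]

/-- The decomposition data. -/
theorem exists_proj (hdisj : N ⊓ P = ⊥) (hprod : N ⊔ P = ⊤) :
    ∃ π : G →* P, (∀ h : P, π h = h) ∧ (∀ n ∈ N, π n = 1) ∧ ∀ g : G, g * (π g : G)⁻¹ ∈ N := by
  set φ : P →* G ⧸ N := (QuotientGroup.mk' N).comp P.subtype with hφ
  have hinj : Function.Injective φ := by
    rw [← MonoidHom.ker_eq_bot_iff, eq_bot_iff]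
    intro h hh
    have h1 : (h : G) ∈ N := (QuotientGroup.eq_one_iff _).1 hh
    have h2 : (h : G) ∈ N ⊓ P := ⟨h1, h.2⟩
    rw [hdisj, Subgroup.mem_bot] at h2
    exact Subgroup.mem_bot.2 (Subtype.ext h2)
  have hsurj : Function.Surjective φ := by
    intro x
    obtain ⟨g, rfl⟩ := QuotientGroup.mk'_surjective N x
    obtain ⟨n, hn, h, hh, rfl⟩ :=
      Subgroup.mem_sup_of_normal_left.1 (hprod ▸ Subgroup.mem_top g : g ∈ N ⊔ P)
    exact ⟨⟨h, hh⟩, by simp [hφ, (QuotientGroup.eq_one_iff n).2 hn]⟩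
  set e := MulEquiv.ofBijective φ ⟨hinj, hsurj⟩ with he
  refine ⟨e.symm.toMonoidHom.comp (QuotientGroup.mk' N), fun h => ?_, fun n hn => ?_, fun g => ?_⟩
  · exact e.symm_apply_apply h
  · simp [(QuotientGroup.eq_one_iff n).2 hn]
  · have h : φ (e.symm (QuotientGroup.mk' N g)) = QuotientGroup.mk' N g :=
      e.apply_symm_apply _
    rw [← QuotientGroup.eq_one_iff]
    simp only [hφ, MonoidHom.coe_comp, Subgroup.coe_subtype, Function.comp_apply,
      QuotientGroup.mk'_apply] at h
    simp only [MonoidHom.coe_comp, Function.comp_apply, QuotientGroup.mk_mul,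
      QuotientGroup.mk_inv, MulEquiv.coe_toMonoidHom, QuotientGroup.mk'_apply, h,
      mul_inv_cancel]

/-- The stabiliser in `P` of a linear character of `N`. -/
def stab (P : Subgroup G) (l : N →* ℂˣ) : Subgroup P where
  carrier := {h | ∀ n : N, l ⟨(h : G) * n * (h : G)⁻¹, ‹N.Normal›.conj_mem _ n.2 _⟩ = l n}
  one_mem' := fun n => by congr 1; exact Subtype.ext (by simp)
  mul_mem' := fun {a b} ha hb n => by
    have h1 := ha ⟨(b : G) * n * (b : G)⁻¹, ‹N.Normal›.conj_mem _ n.2 _⟩
    rw [← hb n, ← h1]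
    congr 1
    exact Subtype.ext (by simp [mul_assoc])
  inv_mem' := fun {a} ha n => by
    have h1 := ha ⟨(a : G)⁻¹ * n * (a : G), by
      simpa using ‹N.Normal›.conj_mem _ n.2 (a : G)⁻¹⟩
    simp only [mul_assoc, mul_inv_cancel, mul_one, mul_inv_cancel_left, Subgroup.coe_inv, inv_inv,
      Subtype.coe_eta] at h1 ⊢
    exact h1.symm

variable {π : G →* P} (hπ : ∀ h : P, π h = h) (hπN : ∀ n ∈ N, π n = 1)
  (hπm : ∀ g : G, g * (π g : G)⁻¹ ∈ N)

/-- The extension of `l` by a linear character of its stabiliser. -/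
def ext (l : N →* ℂˣ) (θ : stab P l →* ℂˣ) : (stab P l).comap π →* ℂˣ :=
  MonoidHom.mk' (fun t => l ⟨(t : G) * (π t : G)⁻¹, hπm t⟩ * θ ⟨π t, t.2⟩) fun a b => by
    have h1 := (show π a ∈ stab P l from a.2) ⟨(b : G) * (π b : G)⁻¹, hπm b⟩
    have h2 : (⟨((a * b : (stab P l).comap π) : G) * (π ((a * b : (stab P l).comap π) : G) : G)⁻¹,
        hπm _⟩ : N) = ⟨(a : G) * (π a : G)⁻¹, hπm a⟩ *
          ⟨(π a : G) * ((b : G) * (π b : G)⁻¹) * (π a : G)⁻¹, ‹N.Normal›.conj_mem _ (hπm b) _⟩ :=
      Subtype.ext (by simp [mul_assoc])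
    have h3 : (⟨π ((a * b : (stab P l).comap π) : G), (a * b).2⟩ : stab P l) =
        ⟨π a, a.2⟩ * ⟨π b, b.2⟩ := Subtype.ext (by simp)
    rw [h2, h3, map_mul, map_mul, h1]
    exact mul_mul_mul_comm _ _ _ _

include hπm in
theorem inertia_eq [Fintype N] (hab : IsMulCommutative N) (l : N →* ℂˣ) :
    (stab P l).comap π = inertia N ((Chars.linChar l : IrrCharacter N) : N → ℂ) := by
  ext g
  set h := π g with hh
  set n : N := ⟨g * (h : G)⁻¹, hπm g⟩ with hn
  have hg : ∀ m : N, l ⟨g * m * g⁻¹, ‹N.Normal›.conj_mem _ m.2 _⟩ =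
      l ⟨(h : G) * m * (h : G)⁻¹, ‹N.Normal›.conj_mem _ m.2 _⟩ := by
    intro m
    have h1 : (⟨g * m * g⁻¹, ‹N.Normal›.conj_mem _ m.2 _⟩ : N) =
        n * ⟨(h : G) * m * (h : G)⁻¹, ‹N.Normal›.conj_mem _ m.2 _⟩ * n⁻¹ :=
      Subtype.ext (by simp [hn, mul_assoc])
    rw [h1, map_mul, map_mul, map_inv, mul_comm (l n), mul_inv_cancel_right]
  rw [Subgroup.mem_comap, mem_inertia]
  constructor
  · intro hs
    funext m
    rw [conjFun_apply, Chars.linChar_apply, Chars.linChar_apply]
    refine congrArg Units.val ?_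
    have h1 := (hg ⟨g⁻¹ * m * g, by simpa using ‹N.Normal›.conj_mem _ m.2 g⁻¹⟩).trans (hs _)
    simp only [mul_assoc, mul_inv_cancel, mul_one, mul_inv_cancel_left, Subtype.coe_eta] at h1 ⊢
    exact h1.symm
  · intro hs m
    have h2 := congrFun hs ⟨g * m * g⁻¹, ‹N.Normal›.conj_mem _ m.2 _⟩
    rw [conjFun_apply, Chars.linChar_apply, Chars.linChar_apply] at h2
    have h3 := Units.ext h2
    simp only [mul_assoc, inv_mul_cancel, mul_one, inv_mul_cancel_left, Subtype.coe_eta] at h3
    exact (hg m).symm.trans (by simpa [mul_assoc] using h3.symm)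

include hπ hπN in
/-- The indicator of the induced character is one. -/
theorem indicator_indFun (hab : IsMulCommutative N) {l : N →* ℂˣ} {z : P}
    (hzc : ∀ h : P, h * z = z * h) (hz2 : z * z = 1)
    (hzinv : ∀ n : N, (z : G) * n * (z : G)⁻¹ = (n : G)⁻¹) (θ : RealLin (stab P l)) :
    (Nat.card G : ℂ)⁻¹ * ∑ g : G, indFun ((stab P l).comap π)
      (fun t => (ext hπm l θ.1 t : ℂ)) (g * g) = 1 := by
  classical
  letI := Fintype.ofFinite N
  letI := Fintype.ofFinite P
  set F : G → ℂ := extendByZero ((stab P l).comap π) (fun t => (ext hπm l θ.1 t : ℂ)) with hF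
  have hswap : ∑ g : G, indFun ((stab P l).comap π) (fun t => (ext hπm l θ.1 t : ℂ)) (g * g) =
      (Nat.card ((stab P l).comap π) : ℂ)⁻¹ * ((Nat.card G : ℂ) * ∑ g : G, F (g * g)) := by
    simp only [indFun, ← Finset.mul_sum]
    congr 1
    rw [Finset.sum_comm]
    have hx : ∀ x : G, ∑ g : G, F (x⁻¹ * (g * g) * x) = ∑ g : G, F (g * g) := by
      intro x
      rw [← sum_conj_eq (fun g => F (g * g)) x]
      exact Finset.sum_congr rfl fun g _ => by congr 1; group
    rw [hF] at hx
    rw [Finset.sum_congr rfl fun x _ => hx x, Finset.sum_const, Finset.card_univ, nsmul_eq_mul,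
      Nat.card_eq_fintype_card]
  let e : N × P ≃ G :=
    { toFun := fun x => (x.1 : G) * x.2
      invFun := fun g => (⟨g * (π g : G)⁻¹, hπm g⟩, π g)
      left_inv := fun x => by
        have : π ((x.1 : G) * x.2) = x.2 := by rw [map_mul, hπN _ x.1.2, hπ, one_mul]
        exact Prod.ext (Subtype.ext (by simp [this])) this
      right_inv := fun g => by simp }
  let c : P → N →* N := fun h =>
    { toFun := fun n => ⟨(h : G) * n * (h : G)⁻¹, ‹N.Normal›.conj_mem _ n.2 _⟩
      map_one' := Subtype.ext (by simp)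
      map_mul' := fun a b => Subtype.ext (by simp [mul_assoc]) }
  have hiff : ∀ h : P, l * l.comp (c h) = 1 ↔ h * z ∈ (stab P l) := by
    intro h
    have key : ∀ n : N, l ⟨((h * z : P) : G) * n * ((h * z : P) : G)⁻¹,
        ‹N.Normal›.conj_mem _ n.2 _⟩ = (l (c h n))⁻¹ := by
      intro n
      rw [← map_inv]
      congr 1
      refine Subtype.ext ?_
      show (h : G) * (z : G) * (n : G) * ((h : G) * (z : G))⁻¹ = ((h : G) * n * (h : G)⁻¹)⁻¹
      calc (h : G) * (z : G) * (n : G) * ((h : G) * (z : G))⁻¹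
          = (h : G) * ((z : G) * n * (z : G)⁻¹) * (h : G)⁻¹ := by group
        _ = (h : G) * (n : G)⁻¹ * (h : G)⁻¹ := by rw [hzinv]
        _ = _ := by group
    constructor
    · intro h1 n
      rw [key]
      exact inv_eq_of_mul_eq_one_left (DFunLike.congr_fun h1 n)
    · intro h1
      refine MonoidHom.ext fun n => ?_
      have h2 := h1 n
      rw [key] at h2
      show l n * l (c h n) = 1
      rw [← h2, inv_mul_cancel]
  have hinner : ∀ h : P, ∑ n : N, F (e (n, h) * e (n, h)) =
      if h * z ∈ (stab P l) then (Nat.card N : ℂ) else 0 := by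
    intro h
    have hsq : ∀ n : N, e (n, h) * e (n, h) = (((n * c h n : N) : G) * ((h * h : P) : G)) := by
      intro n
      show (n : G) * h * ((n : G) * h) = (n : G) * ((h : G) * n * (h : G)⁻¹) * ((h : G) * h)
      group
    have hπsq : ∀ n : N, π (e (n, h) * e (n, h)) = h * h := by
      intro n
      rw [hsq, map_mul, hπN _ (n * c h n).2, hπ, one_mul]
    by_cases hhh : h * h ∈ (stab P l)
    · have hval : ∀ n : N, F (e (n, h) * e (n, h)) =
          ((Units.coeHom ℂ).comp (l * l.comp (c h))) n * (θ.1 ⟨h * h, hhh⟩ : ℂ) := by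
        intro n
        have hm : e (n, h) * e (n, h) ∈ ((stab P l).comap π) := by
          rw [Subgroup.mem_comap, hπsq]; exact hhh
        rw [hF, extendByZero_mem _ hm]
        show ((l _ * θ.1 _ : ℂˣ) : ℂ) = ((l n * l (c h n) : ℂˣ) : ℂ) * _
        have a1 : (⟨e (n, h) * e (n, h) * ((π (e (n, h) * e (n, h))) : G)⁻¹, hπm _⟩ : N) =
            n * c h n := Subtype.ext (by
          show e (n, h) * e (n, h) * ((π (e (n, h) * e (n, h))) : G)⁻¹ = _
          rw [hπsq, hsq, mul_inv_cancel_right])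
        have a2 : (⟨π (e (n, h) * e (n, h)), hm⟩ : (stab P l)) = ⟨h * h, hhh⟩ := Subtype.ext (hπsq n)
        have a3 := congrArg₂ (fun x y => (((l x) * (θ.1 y) : ℂˣ) : ℂ)) a1 a2
        refine a3.trans ?_
        show ((l (n * c h n) * θ.1 _ : ℂˣ) : ℂ) = _
        rw [map_mul, Units.val_mul]
      rw [Finset.sum_congr rfl fun n _ => hval n, ← Finset.sum_mul]
      by_cases hz : h * z ∈ (stab P l)
      · rw [if_pos hz, (hiff h).2 hz]
        have hone : θ.1 ⟨h * h, hhh⟩ = 1 := by
          have e2 : (⟨h * h, hhh⟩ : (stab P l)) = ⟨h * z, hz⟩ * ⟨h * z, hz⟩ := Subtype.ext (by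
            show h * h = h * z * (h * z)
            rw [mul_assoc, ← mul_assoc z h z, ← hzc h, mul_assoc h z z, hz2, mul_one])
          rw [e2, map_mul]
          exact θ.2 _
        rw [hone]
        simp [Nat.card_eq_fintype_card]
      · rw [if_neg hz, sum_hom_units_eq_zero, zero_mul]
        intro h1
        exact hz ((hiff h).1 (MonoidHom.ext fun n => Units.ext (DFunLike.congr_fun h1 n)))
    · have hz : ¬ h * z ∈ (stab P l) := fun hz => hhh (by
        have := (stab P l).mul_mem hz hz
        rwa [show h * z * (h * z) = h * h by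
          rw [mul_assoc, ← mul_assoc z h z, ← hzc h, mul_assoc h z z, hz2, mul_one]] at this)
      rw [if_neg hz]
      refine Finset.sum_eq_zero fun n _ => ?_
      exact extendByZero_notMem _ fun hm => hhh (by
        rw [Subgroup.mem_comap, hπsq] at hm; exact hm)
  have hsum : ∑ g : G, F (g * g) = (Nat.card N : ℂ) * (Nat.card (stab P l) : ℂ) := by
    rw [← Equiv.sum_comp e, Fintype.sum_prod_type, Finset.sum_comm,
      Finset.sum_congr rfl fun h _ => hinner h, ← Finset.sum_filter, Finset.sum_const,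
      nsmul_eq_mul, mul_comm]
    congr 2
    rw [Nat.card_eq_fintype_card, ← Fintype.card_subtype]
    refine Fintype.card_congr
      { toFun := fun h => ⟨h.1 * z, h.2⟩
        invFun := fun k => ⟨k.1 * z, by rw [mul_assoc, hz2, mul_one]; exact k.2⟩
        left_inv := fun h => Subtype.ext (by simp [mul_assoc, hz2])
        right_inv := fun k => Subtype.ext (by simp [mul_assoc, hz2]) }
  have hcard : Nat.card ((stab P l).comap π) = Nat.card N * Nat.card (stab P l) := by
    have hsur : Function.Surjective π := fun h => ⟨h, hπ h⟩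
    have hi : ((stab P l).comap π).index = (stab P l).index := Subgroup.index_comap_of_surjective (stab P l) hsur
    have hG : Nat.card G = Nat.card N * Nat.card P := by
      rw [← Nat.card_prod]; exact (Nat.card_congr e).symm
    refine Nat.eq_of_mul_eq_mul_right (Nat.pos_of_ne_zero (Subgroup.index_ne_zero_of_finite (H := ((stab P l).comap π)))) ?_
    rw [((stab P l).comap π).card_mul_index, hi, mul_assoc, (stab P l).card_mul_index, hG]
  rw [hswap, hsum, hcard, Nat.cast_mul]
  have h1 : (Nat.card G : ℂ) ≠ 0 := card_ne_zero'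
  have h2 : (Nat.card N : ℂ) ≠ 0 := Nat.cast_ne_zero.2 Nat.card_pos.ne'
  have h3 : (Nat.card (stab P l) : ℂ) ≠ 0 := Nat.cast_ne_zero.2 Nat.card_pos.ne'
  field_simp

end CfsgLib.StronglyRealAverage
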